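import Cfsg.Agent.Lib.BSW.E8
import Cfsg.Agent.Lib.BSW.Count
import Cfsg.Agent.Lib.ZStar.BS
import Cfsg.Agent.Lib.Coprime.Constrained
import Cfsg.Agent.Lib.Small.Basic

/-!
Local analysis for an elementary abelian Sylow `2`-subgroup of order `8`.
-/

open Subgroup

namespace Cfsg.Lib.BSW

variable {G : Type*} [Group G]

/-- the conjugates of `x` under `N` -/
def cOrb (N : Subgroup G) (x : G) : Set G := {y | ∃ n ∈ N, n * x * n⁻¹ = y}

theorem self_mem_cOrb (N : Subgroup G) (x : G) : x ∈ cOrb N x := ⟨1, N.one_mem, by simp⟩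

theorem ncard_cOrb (N : Subgroup G) (x : G) :
    (cOrb N x).ncard = (centralizer ({x} : Set G)).relIndex N := by
  let _ : MulAction N G := MulAction.compHom G ((MulAut.conj (G := G)).comp N.subtype)
  have h1 : MulAction.stabilizer N x = (centralizer ({x} : Set G)).subgroupOf N := by
    ext n
    rw [mem_subgroupOf, mem_centralizer_singleton_iff, MulAction.mem_stabilizer_iff]
    exact mul_inv_eq_iff_eq_mul
  have h2 : MulAction.orbit N x = cOrb N x := by
    ext y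
    exact ⟨fun ⟨n, h⟩ => ⟨n, n.2, h⟩, fun ⟨n, hn, h⟩ => ⟨⟨n, hn⟩, h⟩⟩
  rw [← h2, ← MulAction.index_stabilizer, h1, relIndex]

theorem cOrb_step [Finite G] (N : Subgroup G) {X : Set G} (hX : ∀ y ∈ X, cOrb N y ⊆ X) {x : G}
    (hx : x ∈ X) : (∀ y ∈ X \ cOrb N x, cOrb N y ⊆ X \ cOrb N x) ∧
      (X \ cOrb N x).ncard + (cOrb N x).ncard = X.ncard := by
  refine ⟨fun y hy z hz => ⟨hX y hy.1 hz, fun ⟨m, hm, e⟩ => hy.2 ?_⟩,
    Set.ncard_sdiff_add_ncard_of_subset (hX x hx)⟩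
  obtain ⟨n, hn, e'⟩ := hz
  exact ⟨n⁻¹ * m, N.mul_mem (N.inv_mem hn) hm, by
    rw [show n⁻¹ * m * x * (n⁻¹ * m)⁻¹ = n⁻¹ * (m * x * m⁻¹) * n by group, e, ← e']; group⟩

theorem dvd_ncard_of_cOrb [Finite G] (N : Subgroup G) (m : ℕ) : ∀ (k : ℕ) {X : Set G},
    (∀ y ∈ X, cOrb N y ⊆ X) → (∀ y ∈ X, (cOrb N y).ncard = m) → X.ncard = k → m ∣ k := by
  intro k
  induction k using Nat.strong_induction_on with
  | _ k ih =>
    intro X hX hm hk
    rcases X.eq_empty_or_nonempty with rfl | ⟨x, hx⟩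
    · rw [← hk]; simp
    · obtain ⟨h1, h2⟩ := cOrb_step N hX hx
      have h3 := (Set.ncard_pos (Set.toFinite _)).2 ⟨x, self_mem_cOrb N x⟩
      have := ih _ (by omega) h1 (fun y hy => hm y hy.1) rfl
      rw [← hk, ← h2, hm x hx]
      exact dvd_add this dvd_rfl

theorem cOrb_eq_of_ncard_seven [Finite G] (N : Subgroup G) {X : Set G}
    (hX : ∀ y ∈ X, cOrb N y ⊆ X) (h3 : ∀ y ∈ X, Odd (cOrb N y).ncard ∧ (cOrb N y).ncard ≠ 1)
    (h7 : X.ncard = 7) {x : G} (hx : x ∈ X) : cOrb N x = X := by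
  refine (hX x hx).antisymm fun y hy => by_contra fun hy' => ?_
  obtain ⟨a1, a2⟩ := cOrb_step N hX hx
  obtain ⟨b1, b2⟩ := cOrb_step N a1 ⟨hy, hy'⟩
  obtain ⟨⟨i, hi⟩, hi'⟩ := h3 x hx
  obtain ⟨⟨j, hj⟩, hj'⟩ := h3 y hy
  obtain ⟨z, hz⟩ := Set.nonempty_of_ncard_ne_zero
    (show ((X \ cOrb N x) \ cOrb N y).ncard ≠ 0 by omega)
  obtain ⟨-, c2⟩ := cOrb_step N b1 hz
  obtain ⟨⟨k, hk⟩, hk'⟩ := h3 z hz.1.1
  omega

section e8

variable [Finite G] (T : Subgroup G) [T.Normal] (hT : Nat.card T = 8) (hsq : ∀ x ∈ T, x * x = 1)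
  (hC : centralizer (T : Set G) ≤ T) (hi : Odd T.index) {z : G} (hz : z ∈ T) (hz1 : z ≠ 1)
  (hc : ∀ g, g * z = z * g)

omit [Finite G] [T.Normal] in
include hsq in
theorem comm_of_sq {a b : G} (ha : a ∈ T) (hb : b ∈ T) : a * b = b * a := by
  have h1 := hsq _ (T.mul_mem ha hb)
  have h2 := inv_eq_of_mul_eq_one_left (hsq a ha)
  have h3 := inv_eq_of_mul_eq_one_left (hsq b hb)
  rw [← inv_eq_of_mul_eq_one_left h1, mul_inv_rev, h2, h3]

include hT hsq hC hi hz hz1 hc in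
theorem e8_hfix (x : G) (hx : x ∉ T) (s : G) (hs : s ∈ T) (h : x * s = s * x) : s = 1 ∨ s = z := by
  by_contra hne
  push Not at hne
  apply hx
  let C := (centralizer ({x} : Set G)).subgroupOf T
  have hm : ∀ r : T, r ∈ C ↔ x * r * x⁻¹ = r := fun r => by
    rw [mem_subgroupOf, mem_centralizer_singleton_iff, mul_inv_eq_iff_eq_mul, eq_comm]
  have hC3 : 2 < Nat.card C := by
    refine (Set.two_lt_ncard_iff (s := (C : Set T))).2 ⟨1, ⟨s, hs⟩, ⟨z, hz⟩, C.one_mem,
      (hm _).2 (by simp [h]), (hm _).2 (by simp [hc]), ?_, ?_, ?_⟩ <;>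
    simp [Subtype.ext_iff, hne.1.symm, hne.2, hz1.symm]
  have hidx : C.index = 1 ∨ C.index = 2 := by
    have h1 := C.index_mul_card
    rw [hT] at h1
    have : C.index ≤ 2 := by nlinarith
    have : C.index ≠ 0 := by rintro e; simp [e] at h1
    omega
  have key : x * x ∈ T := by
    refine hC fun r hr => ?_
    have hr' : x * r * x⁻¹ ∈ T := Normal.conj_mem inferInstance r hr x
    have h1 : (⟨x * r * x⁻¹, hr'⟩ * ⟨r, hr⟩ : T) ∈ C := by
      rcases hidx with h1 | h1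
      · rw [index_eq_one.1 h1]; trivial
      · rw [mul_mem_iff_of_index_two h1, hm, hm]
        simp
    rw [hm] at h1
    have h2 : x * (x * r * x⁻¹) * x⁻¹ * (x * r * x⁻¹) = r * (x * r * x⁻¹) := by
      rw [comm_of_sq T hsq hr hr']
      exact Eq.trans (by simp [mul_assoc]) h1
    calc r * (x * x) = x * (x * r * x⁻¹) * x⁻¹ * (x * x) := by rw [mul_right_cancel h2]
      _ = _ := by group
  have h1 : (x : G ⧸ T) ^ 2 = 1 := by
    rw [← QuotientGroup.mk_pow, QuotientGroup.eq_one_iff, pow_two]; exact key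
  rw [← QuotientGroup.eq_one_iff]
  exact eq_one_of_pow_coprime (Nat.coprime_two_left.2 hi) h1 pow_card_eq_one'

include hT hsq hC hi hz hz1 hc in
theorem e8_index : T.index = 1 ∨ T.index = 3 := by
  have h6 : ((T : Set G) \ {1, z}).ncard = 6 := by
    have := Set.ncard_sdiff_add_ncard_of_subset (s := {1, z}) (t := (T : Set G))
      (by rintro _ (rfl | rfl); exacts [T.one_mem, hz])
    rw [Set.ncard_pair hz1.symm, show (T : Set G).ncard = 8 from hT] at this
    omega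
  have := dvd_ncard_of_cOrb ⊤ T.index 6 (X := (T : Set G) \ {1, z}) ?_ ?_ h6
  · have h1 := Nat.le_of_dvd (by norm_num) this
    obtain ⟨k, hk⟩ := hi
    interval_cases T.index <;> omega
  · rintro y ⟨hy, hy'⟩ _ ⟨n, -, rfl⟩
    refine ⟨Normal.conj_mem inferInstance y hy n, ?_⟩
    rintro (e | e)
    · exact hy' (Or.inl (conj_eq_one_iff.1 e))
    · exact hy' (Or.inr (by
        rw [Set.mem_singleton_iff, mul_inv_eq_iff_eq_mul, ← hc n, mul_right_inj] at e
        exact e))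
  · rintro y ⟨hy, hy'⟩
    rw [ncard_cOrb, relIndex_top_right]
    congr 1
    refine le_antisymm (fun x hx => by_contra fun hx' => hy' ?_) fun x hx =>
      mem_centralizer_singleton_iff.2 (comm_of_sq T hsq hx hy)
    exact e8_hfix T hT hsq hC hi hz hz1 hc x hx' y hy (mem_centralizer_singleton_iff.1 hx)

end e8

theorem e8_automizer [Finite G] [IsSimpleGroup G] (hG : ¬ IsMulCommutative G) (S : Sylow 2 G)
    (hsq : ∀ x ∈ (S : Subgroup G), x * x = 1) (hS8 : Nat.card (S : Subgroup G) = 8)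
    (hC : ∀ t : G, orderOf t = 2 → Group.IsSolvable (centralizer ({t} : Set G))) :
    (centralizer ((S : Subgroup G) : Set G)).relIndex
      (normalizer ((S : Subgroup G) : Set G)) = 7 := by
  have hcomm : ∀ {a b : G}, a ∈ (S : Subgroup G) → b ∈ (S : Subgroup G) → a * b = b * a :=
    comm_of_sq _ hsq
  have : IsMulCommutative (S : Subgroup G) := ⟨⟨fun a b => Subtype.ext (hcomm a.2 b.2)⟩⟩
  set N := normalizer ((S : Subgroup G) : Set G) with hN
  have h7 : (((S : Subgroup G) : Set G) \ {1}).ncard = 7 := by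
    rw [Set.ncard_sdiff_singleton_of_mem (S : Subgroup G).one_mem,
      show ((S : Subgroup G) : Set G).ncard = 8 from hS8]
  have hle : ∀ {y}, y ∈ (S : Subgroup G) → (S : Subgroup G) ≤ centralizer ({y} : Set G) :=
    fun hy x hx => mem_centralizer_singleton_iff.2 (hcomm hx hy)
  obtain ⟨t, ht⟩ := Set.nonempty_of_ncard_ne_zero
    (show (((S : Subgroup G) : Set G) \ {1}).ncard ≠ 0 by omega)
  have horb := cOrb_eq_of_ncard_seven N (X := ((S : Subgroup G) : Set G) \ {1}) ?_ ?_ h7 ht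
  rotate_left
  · rintro y ⟨hy, hy'⟩ _ ⟨n, hn, rfl⟩
    exact ⟨(mem_normalizer_iff.1 hn y).1 hy, fun e => hy' (conj_eq_one_iff.1 e)⟩
  · rintro y ⟨hy, hy'⟩
    rw [ncard_cOrb]
    refine ⟨Nat.not_even_iff_odd.1 fun h => S.not_dvd_index (h.two_dvd.trans
      ((relIndex_dvd_of_le_left N (hle hy)).trans (relIndex_dvd_index_of_le le_normalizer))),
      fun h => hy' (eq_one_of_central_in_normalizer (sm_pResidual_eq_top hG) S hy fun n hn =>
        mem_centralizer_singleton_iff.1 (relIndex_eq_one.1 h hn))⟩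
  have t2 : orderOf t = 2 := orderOf_two_of_mul_self ht.2 (hsq t ht.1)
  have hconj : ∀ x : G, orderOf x = 2 → IsConj t x := fun x hx => by
    obtain ⟨g, hg⟩ := exists_conj_mem_sylow S (Q := zpowers x)
      (IsPGroup.of_card (n := 1) (by rw [Nat.card_zpowers, hx]; rfl))
    obtain ⟨n, -, e⟩ : g * x * g⁻¹ ∈ cOrb N t := horb ▸ ⟨hg x (mem_zpowers x), fun e =>
      ne_one_of_orderOf_two hx (conj_eq_one_iff.1 e)⟩
    exact (isConj_iff.2 ⟨n, e⟩).trans (isConj_iff.2 ⟨g, rfl⟩).symm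
  let π := QuotientGroup.mk' (pPrimeCore 2 (centralizer ({t} : Set G)))
  have hπ : Function.Surjective π := QuotientGroup.mk'_surjective _
  have hker : ¬ 2 ∣ Nat.card π.ker := by
    rw [QuotientGroup.ker_mk']; exact not_dvd_card_pPrimeCore
  let S' := S.subtype (hle ht.1)
  let T := S'.mapSurjective hπ
  have hinj : ∀ a ∈ (S' : Subgroup _), π a = 1 → a = 1 := fun a ha h =>
    eq_one_of_pow_coprime (Nat.prime_two.coprime_iff_not_dvd.2 hker)
      (Subtype.ext ((pow_two _).trans (hsq a ha)))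
      (congrArg Subtype.val (pow_card_eq_one' (G := π.ker) (x := ⟨a, h⟩)))
  have hT : Nat.card T.toSubgroup = 8 := by
    rw [← hS8, ← Nat.card_congr (subgroupOfEquivOfLe (hle ht.1)).toEquiv]
    refine (Nat.card_congr (Equiv.ofBijective (π.subgroupMap S') ⟨?_, π.subgroupMap_surjective _⟩)).symm
    exact (injective_iff_map_eq_one _).2 fun a h => Subtype.ext (hinj a a.2 (congrArg Subtype.val h))
  have hsq' : ∀ x ∈ T.toSubgroup, x * x = 1 := by
    rintro _ ⟨a, ha, rfl⟩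
    rw [← map_mul, show a * a = 1 from Subtype.ext (hsq a ha), map_one]
  have hcO := centralizer_pCore_le_of_isSolvable (p := 2)
    (G := _ ⧸ pPrimeCore 2 (centralizer ({t} : Set G)))
    (by have := hC t t2; infer_instance) pPrimeCore_quotient_pPrimeCore
  have hTO : T.toSubgroup = pCore 2 _ := le_antisymm (fun x hx => hcO fun y hy =>
    comm_of_sq _ hsq' (pCore_le_sylow T hy) hx) (pCore_le_sylow T)
  have : T.toSubgroup.Normal := hTO ▸ inferInstance
  have tT : π (selfC t) ∈ T.toSubgroup := ⟨selfC t, ht.1, rfl⟩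
  have t1 : π (selfC t) ≠ 1 := fun e => ht.2 (congrArg Subtype.val (hinj _ ht.1 e))
  have hc : ∀ g, g * π (selfC t) = π (selfC t) * g := fun g => by
    obtain ⟨g, rfl⟩ := hπ g
    rw [← map_mul, selfC_central, map_mul]
  have hi : Odd T.toSubgroup.index := Nat.not_even_iff_odd.1 fun h =>
    T.not_dvd_index h.two_dvd
  rw [← hTO] at hcO
  rcases e8_index _ hT hsq' hcO hi tT t1 hc with h1 | h3
  · rw [← h7, ← horb, ncard_cOrb, relIndex, relIndex]
    congr 1
    ext n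
    rw [mem_subgroupOf, mem_subgroupOf]
    refine ⟨fun h => mem_centralizer_singleton_iff.2 (h t ht.1).symm, fun h s hs => ?_⟩
    have e := hinj (⟨n, h⟩ * ⟨s, hle ht.1 hs⟩ * ⟨n, h⟩⁻¹ * ⟨s, hle ht.1 hs⟩⁻¹)
      ((S : Subgroup G).mul_mem ((mem_normalizer_iff.1 n.2 s).1 hs) ((S : Subgroup G).inv_mem hs))
      (by
        rw [index_eq_one] at h1
        rw [map_mul, map_mul, map_mul, comm_of_sq _ hsq' (a := π _) (b := π ⟨s, _⟩)
          (h1 ▸ mem_top _) (h1 ▸ mem_top _)]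
        simp)
    have e' : (n : G) * s * (n : G)⁻¹ * s⁻¹ = 1 := congrArg Subtype.val e
    rw [mul_inv_eq_one, mul_inv_eq_iff_eq_mul] at e'
    exact e'.symm
  · exact (e8_false (sm_commutator_eq_top hG) t2 hconj S hS8 hsq π hπ hker
      (by rw [← T.toSubgroup.index_mul_card, h3, hT]) T hT hsq' tT
      (e8_hfix _ hT hsq' hcO hi tT t1 hc)).elim

end Cfsg.Lib.BSW
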